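import Mathlib
import Cfsg.Agent.H658.InertialBound
import Cfsg.Agent.H658.CyclicPattern
import Cfsg.Agent.S0973
import Cfsg.Agent.S4733
set_option linter.all false

-- part: H658/TwoGen
section
/-!
# Central cyclic quotients of abelian groups with few generators
-/

set_option autoImplicit false
set_option linter.unusedSectionVars false

namespace Cfsg.Agent.H658

section group

variable {G : Type*} [Group G]

theorem normal_of_le_center'' {U : Subgroup G} (h : U ≤ Subgroup.center G) : U.Normal where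
  conj_mem := by
    intro n hn g
    have h1 : g * n * g⁻¹ = n := by
      rw [Subgroup.mem_center_iff.1 (h hn) g]
      group
    rw [h1]
    exact hn

theorem card_map_mk {U E : Subgroup G} [U.Normal] (h : U ≤ E) :
    Nat.card (E.map (QuotientGroup.mk' U)) * Nat.card U = Nat.card E := by
  rw [← Subgroup.relIndex_ker, QuotientGroup.ker_mk', Subgroup.relIndex,
    ← Subgroup.card_mul_index (U.subgroupOf E), mul_comm,
    Nat.card_congr (Subgroup.subgroupOfEquivOfLe h).toEquiv]

theorem subgroupOf_closure {D H : Subgroup G} {S : Set G} (hS : D = Subgroup.closure S)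
    (hDH : D ≤ H) {S' : Set H} (hS' : (Subtype.val '' S' : Set G) = S) :
    D.subgroupOf H = Subgroup.closure S' := by
  apply Subgroup.map_injective (Subgroup.subtype_injective H)
  rw [Subgroup.subgroupOf_map_subtype, inf_eq_left.2 hDH, hS, MonoidHom.map_closure,
    Subgroup.coe_subtype, hS']

/-- The image of `⟨x, y⟩` modulo `⟨x⟩`. -/
theorem map_closure_pair {x y : G} {U : Subgroup G} [U.Normal] (hU : U = Subgroup.zpowers x) :
    (Subgroup.closure {x, y}).map (QuotientGroup.mk' U) =
      Subgroup.zpowers (QuotientGroup.mk' U y) := by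
  rw [MonoidHom.map_closure, Set.image_pair, Subgroup.zpowers_eq_closure]
  have h1 : QuotientGroup.mk' U x = 1 := by
    rw [QuotientGroup.mk'_apply, QuotientGroup.eq_one_iff, hU]
    exact Subgroup.mem_zpowers x
  rw [h1]
  exact Subgroup.closure_insert_one _

/-- The image of `⟨x, y, z⟩` modulo `⟨x⟩`. -/
theorem map_closure_triple {x y z : G} {U : Subgroup G} [U.Normal] (hU : U = Subgroup.zpowers x) :
    (Subgroup.closure {x, y, z}).map (QuotientGroup.mk' U) =
      Subgroup.closure {QuotientGroup.mk' U y, QuotientGroup.mk' U z} := by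
  rw [MonoidHom.map_closure, Set.image_insert_eq, Set.image_pair]
  have h1 : QuotientGroup.mk' U x = 1 := by
    rw [QuotientGroup.mk'_apply, QuotientGroup.eq_one_iff, hU]
    exact Subgroup.mem_zpowers x
  rw [h1]
  exact Subgroup.closure_insert_one _

end group

section comm

variable {A : Type*} [CommGroup A]

theorem card_le_of_closure_triple [Finite A] {x y z : A}
    (h : Subgroup.closure {x, y, z} = ⊤) : Nat.card A ≤ orderOf x * (orderOf y * orderOf z) := by
  let f : Subgroup.zpowers x × (Subgroup.zpowers y × Subgroup.zpowers z) →* A :=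
    (Subgroup.zpowers x).subtype.coprod
      ((Subgroup.zpowers y).subtype.coprod (Subgroup.zpowers z).subtype)
  have hf : Function.Surjective f := by
    rw [← MonoidHom.range_eq_top, eq_top_iff, ← h, Subgroup.closure_le]
    rintro w (rfl | rfl | rfl)
    · exact ⟨(⟨w, Subgroup.mem_zpowers w⟩, (1, 1)), by simp [f]⟩
    · exact ⟨(1, (⟨w, Subgroup.mem_zpowers w⟩, 1)), by simp [f]⟩
    · exact ⟨(1, (1, ⟨w, Subgroup.mem_zpowers w⟩)), by simp [f]⟩
  calc Nat.card A ≤ Nat.card (Subgroup.zpowers x × (Subgroup.zpowers y × Subgroup.zpowers z)) :=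
        Nat.card_le_card_of_surjective f hf
    _ = orderOf x * (orderOf y * orderOf z) := by
        rw [Nat.card_prod, Nat.card_prod, Nat.card_zpowers, Nat.card_zpowers, Nat.card_zpowers]

end comm

section rank

variable {A : Type*} [Group A] [Finite A]

theorem exists_pair_of_rank (h : Group.rank A = 2) :
    ∃ x y : A, Subgroup.closure {x, y} = ⊤ ∧ Subgroup.zpowers x ≠ ⊤ := by
  classical
  obtain ⟨S, hS, hSt⟩ := Group.rank_spec A
  rw [h, Finset.card_eq_two] at hS
  obtain ⟨x, y, -, rfl⟩ := hS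
  refine ⟨x, y, by simpa using hSt, fun hx => ?_⟩
  have h1 : Subgroup.closure (({x} : Finset A) : Set A) = ⊤ := by
    rw [Finset.coe_singleton, ← Subgroup.zpowers_eq_closure, hx]
  have h2 := Group.rank_le h1
  rw [Finset.card_singleton] at h2
  omega

theorem exists_triple_of_rank (hcomm : ∀ a b : A, a * b = b * a) (h : Group.rank A = 3) :
    ∃ x y z : A, Subgroup.closure {x, y, z} = ⊤ ∧ Subgroup.closure {x, y} ≠ ⊤ ∧
      Nat.card A ≤ orderOf x ^ 3 := by
  classical
  let _ : CommGroup A := { (inferInstance : Group A) with mul_comm := hcomm }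
  have key : ∀ x y z : A, Subgroup.closure {x, y, z} = ⊤ → orderOf y ≤ orderOf x →
      orderOf z ≤ orderOf x → ∃ x y z : A, Subgroup.closure {x, y, z} = ⊤ ∧
        Subgroup.closure {x, y} ≠ ⊤ ∧ Nat.card A ≤ orderOf x ^ 3 := by
    intro x y z hxyz hy hz
    refine ⟨x, y, z, hxyz, fun hxy => ?_, ?_⟩
    · have h1 : Subgroup.closure (({x, y} : Finset A) : Set A) = ⊤ := by
        rw [Finset.coe_pair, hxy]
      have h2 := Group.rank_le h1
      have h3 := Finset.card_le_two (a := x) (b := y)
      omega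
    · calc Nat.card A ≤ orderOf x * (orderOf y * orderOf z) := card_le_of_closure_triple hxyz
        _ ≤ orderOf x * (orderOf x * orderOf x) :=
          Nat.mul_le_mul_left _ (Nat.mul_le_mul hy hz)
        _ = orderOf x ^ 3 := by ring
  obtain ⟨S, hS, hSt⟩ := Group.rank_spec A
  rw [h, Finset.card_eq_three] at hS
  obtain ⟨x, y, z, -, -, -, rfl⟩ := hS
  have hxyz : Subgroup.closure {x, y, z} = ⊤ := by simpa using hSt
  have e1 : ({y, x, z} : Set A) = {x, y, z} := Set.insert_comm _ _ _
  have e2 : ({z, x, y} : Set A) = {x, y, z} := by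
    rw [Set.insert_comm z x, Set.pair_comm z y]
  rcases le_total (orderOf y) (orderOf x) with h1 | h1
  · rcases le_total (orderOf z) (orderOf x) with h2 | h2
    · exact key x y z hxyz h1 h2
    · exact key z x y (by rw [e2]; exact hxyz) h2 (h1.trans h2)
  · rcases le_total (orderOf z) (orderOf y) with h2 | h2
    · exact key y x z (by rw [e1]; exact hxyz) h1 h2
    · exact key z x y (by rw [e2]; exact hxyz) (h1.trans h2) h2

end rank

end Cfsg.Agent.H658
end

-- part: H658/CountMajor
section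
/-!
# The bound `k(B) ≤ p ^ d * l(b)` for a major subsection `(u, b)`
-/

set_option autoImplicit false
set_option linter.unusedSectionVars false

open Cfsg
open scoped ComplexConjugate

namespace Cfsg.Agent.H658

open Cfsg.Agent.Blocks.Local Cfsg.Agent.Characters Cfsg.Agent.Blocks.Blau
open Cfsg.Agent.H613.RegGram Cfsg.Agent.H613.Contrib Cfsg.Agent.H613.ContribVal

variable {G : Type*} [Group G] [Finite G] {p : ℕ} [Fact p.Prime] {M : Ideal AlgInt}

/-- For a major subsection `(u, b)` of `B`: `k(B) ≤ p ^ d * l(b)`. -/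
theorem card_le_pow_mul_blockRank (hM : IsPModular p M) {u : G} (hu : ∃ k : ℕ, orderOf u = p ^ k)
    {H : Subgroup G} (hH : H = Subgroup.centralizer ({u} : Set G))
    {b : Set (IrrCharacter H)} {B : Set (IrrCharacter G)}
    (hind : IsInducedBlock M H b B) (hd : blockDefect p b = blockDefect p B) :
    Nat.card B ≤ p ^ blockDefect p B * blockRank p b := by
  classical
  have hpp : p.Prime := Fact.out
  have := Fintype.ofFinite G
  have := Fintype.ofFinite H
  have := Core.finite_irr (G := H)
  have := Fintype.ofFinite (IrrCharacter H)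
  have := Core.finite_irr (G := G)
  have := Fintype.ofFinite (IrrCharacter G)
  have : Fintype B := Fintype.ofFinite B
  have : Fintype b := Fintype.ofFinite b
  obtain ⟨j, hj⟩ := hu
  obtain ⟨q, hqdef⟩ : ∃ q, q = p ^ j := ⟨_, rfl⟩
  have hq0 : q ≠ 0 := by rw [hqdef]; exact pow_ne_zero _ hpp.ne_zero
  have : NeZero q := ⟨hq0⟩
  have huq : u ^ q = 1 := by rw [hqdef, ← hj]; exact pow_orderOf_eq_one u
  have hcen : ∀ k : ℕ, k.Coprime q → H = Subgroup.centralizer ({u ^ k} : Set G) := by
    intro k hk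
    rw [Cfsg.Agent.Blocks.GaloisConj.centralizer_pow_eq huq hk]
    exact hH
  have hord : ∀ k : ℕ, ∃ i : ℕ, orderOf (u ^ k) = p ^ i := by
    intro k
    have h1 : orderOf (u ^ k) ∣ p ^ j := by rw [← hj]; exact orderOf_pow_dvd k
    obtain ⟨i, -, hi⟩ := (Nat.dvd_prime_pow hpp).1 h1
    exact ⟨i, hi⟩
  have hcop : ∀ κ : (ZMod q)ˣ, ((κ : ZMod q).val).Coprime q := fun κ => ZMod.val_coe_unit_coprime κ
  have hpos : ∀ (χ : B) (κ : (ZMod q)ˣ),
      0 < (p : ℝ) ^ blockDefect p b * cn p (u ^ (κ : ZMod q).val) b (χ : G → ℂ) := by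
    intro χ κ
    have h2 := contr_self_ne_zero hM (hord _) (hcen _ (hcop κ)) hind hd χ.2
    rw [contr_self_eq_cn] at h2
    refine mul_pos (pow_pos (by exact_mod_cast hpp.pos) _)
      (lt_of_le_of_ne (cn_nonneg _ _ _ _) fun h => h2 ?_)
    rw [← h]
    norm_num
  have hint : ∀ (χ : B) (κ : (ZMod q)ˣ), IsIntegral ℤ
      (((p : ℝ) ^ blockDefect p b * cn p (u ^ (κ : ZMod q).val) b (χ : G → ℂ) : ℝ) : ℂ) := by
    intro χ κ
    have h1 := isIntegral_pow_mul_contr hM (hord _) (hcen _ (hcop κ)) hind.1 χ χ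
    rw [contr_self_eq_cn] at h1
    push_cast
    exact h1
  have hsum : ∀ κ : (ZMod q)ˣ, ∑ χ : B,
      (p : ℝ) ^ blockDefect p b * cn p (u ^ (κ : ZMod q).val) b (χ : G → ℂ) =
        (p : ℝ) ^ blockDefect p b * blockRank p b := by
    intro κ
    rw [← Finset.mul_sum]
    congr 1
    have h1 := sum_contr_self hM (hord _) (hcen _ (hcop κ)) hind
    simp only [contr_self_eq_cn] at h1
    exact_mod_cast h1
  have hmain := card_le_sum (fun i : B × (ZMod q)ˣ =>
    (p : ℝ) ^ blockDefect p b * cn p (u ^ (i.2 : ZMod q).val) b (i.1 : G → ℂ))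
    (fun i => hpos i.1 i.2) (fun i => hint i.1 i.2) hq0 (by
      intro σ m hm hσ
      refine ⟨Equiv.prodCongr (Equiv.refl _) (Equiv.mulRight (ZMod.unitOfCoprime m hm)), ?_⟩
      rintro ⟨χ, κ⟩ x hx
      have huq' : (u ^ (κ : ZMod q).val) ^ q = 1 := by
        rw [← pow_mul, mul_comm, pow_mul, huq, one_pow]
      have h1 := sigma_contr hM hq0 huq' (hcen _ (hcop κ)) hind.1 (χ : IrrCharacter G) σ m hm hσ 1 x
        (by rw [hx]; norm_num)
      rw [h1]
      have h2 : (u ^ (κ : ZMod q).val) ^ m =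
          u ^ (((κ * ZMod.unitOfCoprime m hm : (ZMod q)ˣ) : ZMod q).val) := by
        rw [← pow_mul]
        refine (pow_eq_pow_iff_modEq.2 ?_)
        refine Nat.ModEq.of_dvd (orderOf_dvd_of_pow_eq_one huq) ?_
        rw [← ZMod.natCast_eq_natCast_iff]
        simp
      rw [h2]
      push_cast
      rw [one_mul]
      rfl)
  rw [Fintype.sum_prod_type, Finset.sum_comm, Finset.sum_congr rfl fun κ _ => hsum κ,
    Finset.sum_const, Finset.card_univ, nsmul_eq_mul, Fintype.card_prod] at hmain
  push_cast at hmain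
  have hu0 : (0 : ℝ) < (Fintype.card (ZMod q)ˣ : ℝ) := by exact_mod_cast Fintype.card_pos
  rw [mul_comm] at hmain
  have h3 := le_of_mul_le_mul_left hmain hu0
  rw [Nat.card_eq_fintype_card, ← hd]
  exact_mod_cast h3

end Cfsg.Agent.H658
end

-- part: H658/RankTwo
section
/-!
# Blocks with an abelian defect group with two or three generators
-/

set_option autoImplicit false
set_option linter.unusedSectionVars false

open Cfsg
open scoped ComplexConjugate

namespace Cfsg.Agent.H658

open Cfsg.Agent.Blocks.Local Cfsg.Agent.Characters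
open Cfsg.Agent.H644.CentralQuot

universe u

variable {G : Type u} [Group G] [Finite G] {p : ℕ} [Fact p.Prime] {M : Ideal AlgInt}

/-- The major subsection of an element `x` of the abelian defect group `D` and its quotient
modulo `⟨x⟩`. -/
theorem exists_major_defl (hM : IsPModular p M) {B : Set (IrrCharacter G)} (hB : IsPBlock M B)
    {D : Subgroup G} (hBD : IsDefectGroup p M B D) (hab : IsMulCommutative D) {x : G}
    (hx : x ∈ D) :
    ∃ (f : Set (IrrCharacter (Subgroup.centralizer ({x} : Set G))))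
      (U : Subgroup (Subgroup.centralizer ({x} : Set G))) (_ : U.Normal),
      IsInducedBlock M (Subgroup.centralizer ({x} : Set G)) f B ∧
      blockDefect p f = blockDefect p B ∧
      U = Subgroup.zpowers ⟨x, Subgroup.mem_centralizer_singleton_iff.2 rfl⟩ ∧
      U ≤ Subgroup.center _ ∧ IsPGroup p U ∧ Nat.card U = orderOf x ∧
      U ≤ D.subgroupOf (Subgroup.centralizer ({x} : Set G)) ∧
      IsDefectGroup p M (defl U f)
        ((D.subgroupOf (Subgroup.centralizer ({x} : Set G))).map (QuotientGroup.mk' U)) := by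
  have hDp : IsPGroup p D := Cfsg.Agent.Blocks.Basic.isPGroup_of_isDefectGroup hBD
  have hcomm : ∀ w ∈ D, x * w = w * x := by
    intro w hw
    exact congrArg Subtype.val (mul_comm' (⟨x, hx⟩ : D) (⟨w, hw⟩ : D))
  obtain ⟨b, -, hb⟩ := (S0973.result p M hM B hB D hBD).1
  obtain ⟨f, -, hf, hfD, hfd⟩ := exists_major hM hBD hx hcomm hb
  let x' : Subgroup.centralizer ({x} : Set G) := ⟨x, Subgroup.mem_centralizer_singleton_iff.2 rfl⟩
  have hU : Subgroup.zpowers x' ≤ Subgroup.center _ := by
    rw [Subgroup.zpowers_le, Subgroup.mem_center_iff]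
    intro g
    exact Subtype.ext (Subgroup.mem_centralizer_singleton_iff.1 g.2)
  have hUn : (Subgroup.zpowers x').Normal := normal_of_le_center'' hU
  have hx'D : Subgroup.zpowers x' ≤ D.subgroupOf (Subgroup.centralizer ({x} : Set G)) := by
    rw [Subgroup.zpowers_le, Subgroup.mem_subgroupOf]
    exact hx
  have hp : IsPGroup p (Subgroup.zpowers x') :=
    (hDp.comap_of_injective _ (Subgroup.subtype_injective _)).to_le hx'D
  refine ⟨f, Subgroup.zpowers x', hUn, hf, hfd, rfl, hU, hp, ?_, hx'D, ?_⟩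
  · rw [Nat.card_zpowers, ← Subgroup.orderOf_coe]
  · exact (isDefectGroup_defl hM hU hp hf.1 hfD).2

/-- `k(B) ≤ |D|` for an abelian defect group `D` with two generators. -/
theorem card_le_of_closure_pair (hpat : CyclicPattern.{u} p M) (hM : IsPModular p M) {B : Set (IrrCharacter G)}
    (hB : IsPBlock M B) {D : Subgroup G} (hBD : IsDefectGroup p M B D)
    (hab : IsMulCommutative D) {x y : G} (hxy : D = Subgroup.closure {x, y})
    (hne : D ≠ Subgroup.zpowers x) : Nat.card B ≤ Nat.card D := by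
  have hpp : p.Prime := Fact.out
  have := Fintype.ofFinite G
  have hDp : IsPGroup p D := Cfsg.Agent.Blocks.Basic.isPGroup_of_isDefectGroup hBD
  have hx : x ∈ D := by rw [hxy]; exact Subgroup.subset_closure (by simp)
  have hy : y ∈ D := by rw [hxy]; exact Subgroup.subset_closure (by simp)
  have hcomm : ∀ w ∈ D, w * x = x * w := by
    intro w hw
    exact congrArg Subtype.val (mul_comm' (⟨w, hw⟩ : D) (⟨x, hx⟩ : D))
  obtain ⟨f, U, hUn, hf, hfd, hUx, hU, hp, hUc, hUD, hfD⟩ := exists_major_defl hM hB hBD hab hx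
  have := Fintype.ofFinite (Subgroup.centralizer ({x} : Set G))
  have hDH : D ≤ Subgroup.centralizer ({x} : Set G) := fun w hw =>
    Subgroup.mem_centralizer_singleton_iff.2 (hcomm w hw)
  have h1 : D.subgroupOf (Subgroup.centralizer ({x} : Set G)) = Subgroup.closure
      {⟨x, Subgroup.mem_centralizer_singleton_iff.2 rfl⟩, ⟨y, hDH hy⟩} :=
    subgroupOf_closure hxy hDH (by rw [Set.image_pair])
  have h2 : (D.subgroupOf (Subgroup.centralizer ({x} : Set G))).map (QuotientGroup.mk' U) =
      Subgroup.zpowers (QuotientGroup.mk' U ⟨y, hDH hy⟩) := by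
    rw [h1, map_closure_pair hUx]
  have hcyc : IsCyclic ((D.subgroupOf (Subgroup.centralizer ({x} : Set G))).map
      (QuotientGroup.mk' U)) := by
    rw [h2]
    infer_instance
  have hcard := card_map_mk hUD
  have hDcard : Nat.card (D.subgroupOf (Subgroup.centralizer ({x} : Set G))) = Nat.card D :=
    Nat.card_congr (Subgroup.subgroupOfEquivOfLe hDH).toEquiv
  rw [hDcard] at hcard
  obtain ⟨d, hd⟩ := IsPGroup.iff_card.1 hDp
  obtain ⟨a, -, ha⟩ := (Nat.dvd_prime_pow hpp).1 (by
    rw [← hd]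
    exact Dvd.intro _ hcard : Nat.card ((D.subgroupOf (Subgroup.centralizer
      ({x} : Set G))).map (QuotientGroup.mk' U)) ∣ p ^ d)
  have ha1 : 1 ≤ a := by
    by_contra h
    have h0 : a = 0 := by omega
    rw [ha, h0, pow_zero, one_mul, hUc, ← Nat.card_zpowers] at hcard
    apply hne
    symm
    refine Subgroup.eq_of_le_of_card_ge (Subgroup.zpowers_le.2 hx) hcard.ge
  obtain ⟨e, X, Y, δ, δ₀, he, hYe, hr, hXY, hdis, hX, hδ, hδ₀, hrel⟩ :=
    hpat _ _ hcyc a ha1 ha _ (isPBlock_defl hM hU hp hf.1) hfD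
  have hup : ∃ k : ℕ, orderOf x = p ^ k := by
    obtain ⟨k, hk⟩ := IsPGroup.iff_orderOf.1 hDp ⟨x, hx⟩
    exact ⟨k, by rw [← hk, Subgroup.orderOf_mk]⟩
  have h3 := card_le_of_defl hM hup rfl hf.1 hf hfd hU hp hXY hdis he hr hX hδ hδ₀ hrel
  calc Nat.card B ≤ Nat.card U * (Nat.card Y + e) := h3
    _ ≤ Nat.card U * p ^ a := Nat.mul_le_mul_left _ hYe
    _ = Nat.card D := by rw [← hcard, ha, mul_comm]

/-- `k(B) ^ 3 ≤ |D| ^ 5` for an abelian defect group `D` with three generators. -/
theorem card_cube_le_of_closure_triple (hpat : CyclicPattern.{u} p M) (hM : IsPModular p M) {B : Set (IrrCharacter G)}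
    (hB : IsPBlock M B) {D : Subgroup G} (hBD : IsDefectGroup p M B D)
    (hab : IsMulCommutative D) {x y z : G} (hxyz : D = Subgroup.closure {x, y, z})
    (hne : z ∉ Subgroup.closure {x, y}) (hcard : Nat.card D ≤ orderOf x ^ 3) :
    Nat.card B ^ 3 ≤ Nat.card D ^ 5 := by
  have hpp : p.Prime := Fact.out
  have := Fintype.ofFinite G
  have hDp : IsPGroup p D := Cfsg.Agent.Blocks.Basic.isPGroup_of_isDefectGroup hBD
  have hx : x ∈ D := by rw [hxyz]; exact Subgroup.subset_closure (by simp)
  have hy : y ∈ D := by rw [hxyz]; exact Subgroup.subset_closure (by simp)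
  have hz : z ∈ D := by rw [hxyz]; exact Subgroup.subset_closure (by simp)
  have hcomm : ∀ w ∈ D, w * x = x * w := by
    intro w hw
    exact congrArg Subtype.val (mul_comm' (⟨w, hw⟩ : D) (⟨x, hx⟩ : D))
  obtain ⟨f, U, hUn, hf, hfd, hUx, hU, hp, hUc, hUD, hfD⟩ := exists_major_defl hM hB hBD hab hx
  have hDH : D ≤ Subgroup.centralizer ({x} : Set G) := fun w hw =>
    Subgroup.mem_centralizer_singleton_iff.2 (hcomm w hw)
  have h1 : D.subgroupOf (Subgroup.centralizer ({x} : Set G)) = Subgroup.closure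
      {⟨x, Subgroup.mem_centralizer_singleton_iff.2 rfl⟩, ⟨y, hDH hy⟩, ⟨z, hDH hz⟩} :=
    subgroupOf_closure hxyz hDH (by rw [Set.image_insert_eq, Set.image_pair])
  have h2 : (D.subgroupOf (Subgroup.centralizer ({x} : Set G))).map (QuotientGroup.mk' U) =
      Subgroup.closure {QuotientGroup.mk' U ⟨y, hDH hy⟩, QuotientGroup.mk' U ⟨z, hDH hz⟩} := by
    rw [h1, map_closure_triple hUx]
  have hcardD := card_map_mk hUD
  have hDcard : Nat.card (D.subgroupOf (Subgroup.centralizer ({x} : Set G))) = Nat.card D :=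
    Nat.card_congr (Subgroup.subgroupOfEquivOfLe hDH).toEquiv
  rw [hDcard] at hcardD
  have hab' : IsMulCommutative ((D.subgroupOf (Subgroup.centralizer ({x} : Set G))).map
      (QuotientGroup.mk' U)) := by
    have h3 : IsMulCommutative (D.subgroupOf (Subgroup.centralizer ({x} : Set G))) := by
      infer_instance
    infer_instance
  -- the quotient is not generated by `y`
  have hne' : (D.subgroupOf (Subgroup.centralizer ({x} : Set G))).map (QuotientGroup.mk' U) ≠
      Subgroup.zpowers (QuotientGroup.mk' U ⟨y, hDH hy⟩) := by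
    intro h
    apply hne
    have h3 : QuotientGroup.mk' U ⟨z, hDH hz⟩ ∈
        Subgroup.zpowers (QuotientGroup.mk' U ⟨y, hDH hy⟩) := by
      rw [← h, h2]
      exact Subgroup.subset_closure (by simp)
    obtain ⟨n, hn⟩ := Subgroup.mem_zpowers_iff.1 h3
    rw [← map_zpow, QuotientGroup.mk'_apply, QuotientGroup.mk'_apply, QuotientGroup.eq, hUx] at hn
    obtain ⟨m, hm⟩ := Subgroup.mem_zpowers_iff.1 hn
    have h4 : z = y ^ n * x ^ m := by
      have h5 := congrArg (Subtype.val) hm
      push_cast at h5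
      rw [h5]
      group
    rw [h4]
    exact Subgroup.mul_mem _ (Subgroup.zpow_mem _ (Subgroup.subset_closure (by simp)) _)
      (Subgroup.zpow_mem _ (Subgroup.subset_closure (by simp)) _)
  have hup : ∃ k : ℕ, orderOf x = p ^ k := by
    obtain ⟨k, hk⟩ := IsPGroup.iff_orderOf.1 hDp ⟨x, hx⟩
    exact ⟨k, by rw [← hk, Subgroup.orderOf_mk]⟩
  have := Fintype.ofFinite (Subgroup.centralizer ({x} : Set G))
  have hc := isPBlock_defl hM hU hp hf.1
  have h3 := card_le_of_closure_pair hpat hM hc hfD hab' h2 hne'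
  have h4 := (S4733.result p M hM _ hc).1
  rw [blockRank_defl hM hU hp hf.1] at h4
  have h5 := card_le_pow_mul_blockRank hM hup rfl hf hfd
  rw [← S0908.result p M hM B hB D hBD] at h5
  obtain ⟨E, hE⟩ : ∃ E, E = Nat.card ((D.subgroupOf (Subgroup.centralizer ({x} : Set G))).map
    (QuotientGroup.mk' U)) := ⟨_, rfl⟩
  rw [← hE] at h3 hcardD
  rw [hUc] at hcardD
  obtain ⟨N, hN⟩ : ∃ N, N = Nat.card D := ⟨_, rfl⟩
  rw [← hN] at h5 hcardD hcard ⊢
  have hN0 : 0 < N := by rw [hN]; exact Nat.card_pos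
  have h6 : Nat.card B ≤ N * E := h5.trans (Nat.mul_le_mul_left _ (h4.trans h3))
  have h7 : E ^ 3 ≤ N ^ 2 := by
    have h8 : E ^ 3 * N ≤ N ^ 2 * N := by
      calc E ^ 3 * N ≤ E ^ 3 * orderOf x ^ 3 := Nat.mul_le_mul_left _ hcard
        _ = (E * orderOf x) ^ 3 := by ring
        _ = N ^ 2 * N := by rw [hcardD]; ring
    exact Nat.le_of_mul_le_mul_right h8 hN0
  calc Nat.card B ^ 3 ≤ (N * E) ^ 3 := Nat.pow_le_pow_left h6 3
    _ = N ^ 3 * E ^ 3 := by ring
    _ ≤ N ^ 3 * N ^ 2 := Nat.mul_le_mul_left _ h7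
    _ = N ^ 5 := by ring

end Cfsg.Agent.H658
end
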